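import Cfsg.Agent.H620.RIM.AFour

/-!
# S4816: `p = 3`, elements with centralizer `3 × A₄`, kernels of any order prime to 3 (helper483)

* `exists_theta_four` : the preimage of `V` is abelian: a character of degree divisible by 3 over `l` (as in
  `nb_three_of_four`, for every kernel of order prime to 3);
* `nb_three_of_par` : `x` of order 3, rational, `C(x) = ⟨x⟩ × V ⟨d⟩`; `y` rational of prime order with `|C(y)|` odd;
  seven classes with `MGood m`: `NB 3 m S`. If the preimage of `V` is not abelian and no degree is divisible by 3, then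
  `χ(x) = 2 n`, `∑ n ^ 2 = 9`, so all `n` are odd, and `∑ n χ(y) = 0`, `∑ χ(y) ^ 2 = |C(y)|` odd.
-/

set_option autoImplicit false
set_option linter.unusedSectionVars false

namespace Cfsg.Agent.H483.RIM

open Cfsg Subgroup Finset
open Cfsg.Agent.Characters Cfsg.Agent.Characters.Core
open Cfsg.Agent.H622.Over Cfsg.Agent.H849.RIM Cfsg.Agent.H665.RIM Cfsg.Agent.H620.RIM
open scoped ComplexConjugate commutatorElement

universe u

section gen

variable {G : Type u} [Group G] [Finite G]

/-- the value at a rational element is an integer -/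
theorem exists_int_val {y : G} (hy : ∀ k : ℕ, k.Coprime (Nat.card G) → IsConj (y ^ k) y) (χ : IrrCharacter G) :
    ∃ k : ℤ, (χ : G → ℂ) y = k :=
  GaloisBasic.exists_int_of_rat (isIrr_isCharacter χ.2) y
    ((GaloisBasic.exists_rat_iff (isIrr_isCharacter χ.2) y).2 fun m hm =>
      classFunction_apply_eq (isIrr_isClassFunction χ.2) (hy m hm))

/-- a zero at a `p`-element: the degree is divisible by `p` -/
theorem dvd_of_zero {p n : ℕ} [Fact p.Prime] {w : G} (hw : w ^ p ^ n = 1) (χ : IrrCharacter G)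
    (h0 : (χ : G → ℂ) w = 0) : p ∣ charDegree (χ : G → ℂ) := by
  have hp : p.Prime := Fact.out
  obtain ⟨M, hM⟩ := Blocks.ExistsModular.exists_isPModular hp
  have hMp : M.IsPrime := hM.2.1.isPrime
  have h1 := H849.OZ.av_sub_mem (χ := χ) hp hMp hM.2.2 w (j := 0) (n := n) (by rw [pow_zero, one_pow, hw])
  have h3 : H732.VZ.av χ w = 0 := Subtype.ext h0
  rw [h3, pow_zero, zero_sub, Ideal.neg_mem_iff] at h1
  have h4 : H732.VZ.av χ 1 = ((charDegree (χ : G → ℂ) : ℤ) : AlgInt) := by
    apply Subtype.ext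
    rw [H732.VZ.av_coe, ← H686.CharKit.charDegree_irr χ]
    simp
  rw [h4, H732.VZ.int_mem_iff hp hMp hM.2.2] at h1
  exact_mod_cast h1

open scoped Classical in
/-- **The second orthogonality relation over a central character, different classes.** -/
theorem sum_mul_conj_over [Fintype (IrrCharacter G)] {Z : Subgroup G} (hZ : Z ≤ center G) (c : Z →* ℂˣ) {w y : G}
    (hwy : ∀ z : Z, ¬ IsConj (w * z) y) :
    ∑ χ ∈ univ.filter (fun χ : IrrCharacter G => Lies Z c (χ : G → ℂ)), (χ : G → ℂ) w * conj ((χ : G → ℂ) y) = 0 := by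
  have := Fintype.ofFinite Z
  have := Fintype.ofFinite G
  have hcard : (Nat.card Z : ℂ) ≠ 0 := by exact_mod_cast Nat.card_pos.ne'
  have h1 : ∀ χ : IrrCharacter G, ∑ z : Z, conj (c z : ℂ) * (χ : G → ℂ) (w * z) =
      if Lies Z c (χ : G → ℂ) then (Nat.card Z : ℂ) * (χ : G → ℂ) w else 0 := by
    intro χ
    obtain ⟨d, hd⟩ := exists_hom hZ χ.2
    have h2 : ∑ z : Z, conj (c z : ℂ) * (χ : G → ℂ) (w * z) = (∑ z : Z, conj (c z : ℂ) * (d z : ℂ)) * (χ : G → ℂ) w := by
      rw [Finset.sum_mul]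
      refine Finset.sum_congr rfl fun z _ => ?_
      rw [hd w z]
      ring
    rw [h2]
    by_cases hcd : c = d
    · subst hcd
      rw [if_pos hd]
      have h3 : ∑ z : Z, conj (c z : ℂ) * (c z : ℂ) = Nat.card Z := by
        rw [Nat.card_eq_fintype_card, ← Finset.card_univ, ← nsmul_one, ← Finset.sum_const]
        refine Finset.sum_congr rfl fun z _ => ?_
        rw [mul_comm]
        exact hom_mul_conj c z
      rw [h3]
    · rw [sum_conj_mul_eq_zero c d (fun a => conj_hom c a) hcd, zero_mul, if_neg]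
      intro h3
      apply hcd
      ext z
      have h4 := h3 1 z
      have h5 := hd 1 z
      rw [h5] at h4
      have h6 : (χ : G → ℂ) 1 ≠ 0 := isIrr_apply_one_ne_zero χ.2
      exact (mul_left_cancel₀ h6 h4).symm
  have h2 : ∑ χ : IrrCharacter G, (∑ z : Z, conj (c z : ℂ) * (χ : G → ℂ) (w * z)) * conj ((χ : G → ℂ) y) = 0 := by
    have h3 : ∀ z : Z, ∑ χ : IrrCharacter G, (χ : G → ℂ) (w * z) * conj ((χ : G → ℂ) y) = 0 := by
      intro z
      rw [S0145.sum_irr_mul_conj, if_neg (hwy z)]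
    calc ∑ χ : IrrCharacter G, (∑ z : Z, conj (c z : ℂ) * (χ : G → ℂ) (w * z)) * conj ((χ : G → ℂ) y)
        = ∑ z : Z, conj (c z : ℂ) * ∑ χ : IrrCharacter G, (χ : G → ℂ) (w * z) * conj ((χ : G → ℂ) y) := by
          simp only [Finset.sum_mul, Finset.mul_sum]
          rw [Finset.sum_comm]
          refine Finset.sum_congr rfl fun z _ => Finset.sum_congr rfl fun χ _ => ?_
          ring
      _ = 0 := by simp only [h3, mul_zero, Finset.sum_const_zero]
  have h3 : (Nat.card Z : ℂ) * ∑ χ ∈ univ.filter (fun χ : IrrCharacter G => Lies Z c (χ : G → ℂ)),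
      (χ : G → ℂ) w * conj ((χ : G → ℂ) y) = 0 := by
    rw [← h2, Finset.mul_sum, Finset.sum_filter]
    refine Finset.sum_congr rfl fun χ _ => ?_
    rw [h1 χ]
    split_ifs
    · rw [mul_assoc]
    · rw [zero_mul]
  exact (mul_eq_zero.1 h3).resolve_left hcard

/-- **The count.** `w` rational, its values over `c` divisible by 2 and not 0, `|C(w)| = 36 |Z|`; `y` rational, `|C(y)| = k |Z|`
with `k` odd; at least 7 characters over `c`: contradiction. -/
theorem false_of_par {Z : Subgroup G} (hZ : Z ≤ center G) (c : Z →* ℂˣ) {w y : G} (hw : (orderOf w).Coprime (Nat.card Z))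
    (hy : (orderOf y).Coprime (Nat.card Z)) (hwy : ∀ z : Z, ¬ IsConj (w * z) y)
    (hwc : Nat.card (centralizer ({w} : Set G)) = 36 * Nat.card Z) {k : ℕ} (hk : Odd k)
    (hyc : Nat.card (centralizer ({y} : Set G)) = k * Nat.card Z)
    (hwr : ∀ k : ℕ, k.Coprime (Nat.card G) → IsConj (w ^ k) w)
    (hyr : ∀ k : ℕ, k.Coprime (Nat.card G) → IsConj (y ^ k) y)
    (h2 : ∀ χ : IrrCharacter G, Lies Z c (χ : G → ℂ) → ∃ α : ℂ, IsIntegral ℤ α ∧ (χ : G → ℂ) w = 2 * α)
    (h0 : ∀ χ : IrrCharacter G, Lies Z c (χ : G → ℂ) → (χ : G → ℂ) w ≠ 0)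
    (h7 : 7 ≤ Nat.card {χ : IrrCharacter G // Lies Z c (χ : G → ℂ)}) : False := by
  classical
  have := Fintype.ofFinite G
  have := finite_irr (G := G)
  have := Fintype.ofFinite (IrrCharacter G)
  set T : Finset (IrrCharacter G) := univ.filter fun χ : IrrCharacter G => Lies Z c (χ : G → ℂ) with hT
  have hTc : Nat.card {χ : IrrCharacter G // Lies Z c (χ : G → ℂ)} = T.card := by
    rw [Nat.card_eq_fintype_card, Fintype.card_subtype]
  have hmem : ∀ χ, χ ∈ T ↔ Lies Z c (χ : G → ℂ) := fun χ => by rw [hT, mem_filter]; simp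
  choose f hf using exists_int_val hwr
  choose g hg using exists_int_val hyr
  -- half the values
  have hex : ∀ χ : IrrCharacter G, ∃ n : ℤ, Lies Z c (χ : G → ℂ) → f χ = 2 * n := by
    intro χ
    by_cases hl : Lies Z c (χ : G → ℂ)
    · obtain ⟨α, hα, h⟩ := h2 χ hl
      rw [hf] at h
      obtain ⟨n, hn⟩ := GaloisBasic.exists_int_of_isIntegral hα ⟨(f χ : ℚ) / 2, by
        push_cast
        rw [h]
        ring⟩
      refine ⟨n, fun _ => ?_⟩
      rw [hn] at h
      exact_mod_cast h
    · exact ⟨0, fun h => absurd h hl⟩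
  choose n hn using hex
  have hn0 : ∀ χ ∈ T, n χ ≠ 0 := by
    intro χ hχ h
    apply h0 χ ((hmem χ).1 hχ)
    rw [hf, hn χ ((hmem χ).1 hχ), h]
    simp
  have hZ0 : (0 : ℤ) < Nat.card Z := by exact_mod_cast (Nat.card_pos (α := Z))
  -- the sums of squares
  have e1 : ∑ χ ∈ T, n χ ^ 2 = 9 := by
    have h1 := sum_norm_sq_over hZ c hw
    rw [← hT] at h1
    have h3 : ((Nat.card Z : ℤ) * ∑ χ ∈ T, (2 * n χ) ^ 2) = 36 * Nat.card Z := by
      have h4 : (((Nat.card Z : ℤ) * ∑ χ ∈ T, (2 * n χ) ^ 2 : ℤ) : ℝ) = ((36 * Nat.card Z : ℤ) : ℝ) := by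
        push_cast
        rw [← Nat.cast_ofNat (R := ℝ) (n := 36), ← Nat.cast_mul, ← hwc, ← h1]
        congr 1
        refine Finset.sum_congr rfl fun χ hχ => ?_
        rw [hf, hn χ ((hmem χ).1 hχ), Complex.norm_intCast, sq_abs]
        push_cast
        ring
      exact_mod_cast h4
    have h5 : ∑ χ ∈ T, (2 * n χ) ^ 2 = 4 * ∑ χ ∈ T, n χ ^ 2 := by
      rw [Finset.mul_sum]
      exact Finset.sum_congr rfl fun χ _ => by ring
    rw [h5] at h3
    have h6 : (Nat.card Z : ℤ) * (4 * ∑ χ ∈ T, n χ ^ 2) = Nat.card Z * 36 := by rw [h3]; ring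
    have h7 := mul_left_cancel₀ hZ0.ne' h6
    omega
  have e2 : ∑ χ ∈ T, g χ ^ 2 = k := by
    have h1 := sum_norm_sq_over hZ c hy
    rw [← hT, hyc] at h1
    have h3 : ((Nat.card Z : ℤ) * ∑ χ ∈ T, (g χ) ^ 2) = Nat.card Z * k := by
      have h4 : (((Nat.card Z : ℤ) * ∑ χ ∈ T, (g χ) ^ 2 : ℤ) : ℝ) = ((Nat.card Z * k : ℤ) : ℝ) := by
        push_cast at h1 ⊢
        rw [mul_comm (Nat.card Z : ℝ) (k : ℝ), ← h1]
        congr 1
        refine Finset.sum_congr rfl fun χ hχ => ?_
        rw [hg, Complex.norm_intCast, sq_abs]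
      exact_mod_cast h4
    exact mul_left_cancel₀ hZ0.ne' h3
  have e3 : ∑ χ ∈ T, n χ * g χ = 0 := by
    have h1 := sum_mul_conj_over hZ c hwy
    rw [← hT] at h1
    have h3 : ((2 * ∑ χ ∈ T, n χ * g χ : ℤ) : ℂ) = 0 := by
      push_cast
      rw [Finset.mul_sum, ← h1]
      refine Finset.sum_congr rfl fun χ hχ => ?_
      rw [hf, hg, hn χ ((hmem χ).1 hχ), map_intCast]
      push_cast
      ring
    have h4 : 2 * ∑ χ ∈ T, n χ * g χ = 0 := by exact_mod_cast h3
    omega
  -- all `n` are odd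
  have hodd : ∀ χ ∈ T, Odd (n χ) := by
    intro χ hχ
    by_contra hne
    rw [Int.not_odd_iff_even] at hne
    obtain ⟨m, hm⟩ := hne
    have hm0 : m ≠ 0 := by
      rintro rfl
      exact hn0 χ hχ (by omega)
    have h4 : 4 ≤ n χ ^ 2 := by
      have : 1 ≤ m ^ 2 := by
        have := sq_nonneg m
        have := pow_ne_zero 2 hm0
        omega
      rw [hm]
      nlinarith
    have h5 : (((T.erase χ).card : ℕ) : ℤ) ≤ ∑ ψ ∈ T.erase χ, n ψ ^ 2 := by
      rw [Finset.card_eq_sum_ones, Nat.cast_sum]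
      refine Finset.sum_le_sum fun ψ hψ => ?_
      have h6 := hn0 ψ (mem_of_mem_erase hψ)
      have := sq_nonneg (n ψ)
      have := pow_ne_zero 2 h6
      push_cast
      omega
    rw [Finset.card_erase_of_mem hχ] at h5
    rw [← Finset.add_sum_erase T _ hχ] at e1
    rw [hTc] at h7
    have h8 : (6 : ℤ) ≤ ((T.card - 1 : ℕ) : ℤ) := by
      have : 6 ≤ T.card - 1 := by omega
      exact_mod_cast this
    linarith
  -- parity
  have h8 : (2 : ℤ) ∣ ∑ χ ∈ T, (g χ ^ 2 - n χ * g χ) := by
    refine Finset.dvd_sum fun χ hχ => ?_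
    obtain ⟨m, hm⟩ := hodd χ hχ
    have h9 : g χ ^ 2 - n χ * g χ = g χ * (g χ - 1) - 2 * (m * g χ) := by rw [hm]; ring
    rw [h9]
    refine dvd_sub ?_ (dvd_mul_right _ _)
    rcases Int.even_or_odd (g χ) with h | h
    · exact dvd_mul_of_dvd_left h.two_dvd _
    · obtain ⟨q, hq⟩ := h
      exact dvd_mul_of_dvd_right ⟨q, by rw [hq]; ring⟩ _
  rw [Finset.sum_sub_distrib, e2, e3, sub_zero] at h8
  obtain ⟨q, hq⟩ := hk
  omega

/-- Conjugacy of lifts. -/
theorem isConj_lift {S : Type*} [Group S] {π : G →* S} (hπ : Function.Surjective π) (hker : π.ker ≤ center G) {w w' : G}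
    (hw : (orderOf w).Coprime (Nat.card π.ker)) (hw' : w' ^ orderOf w = 1) (h : IsConj (π w') (π w)) : IsConj w' w := by
  obtain ⟨g, hg⟩ := isConj_iff.1 h
  obtain ⟨g, rfl⟩ := hπ g
  have h1 : w⁻¹ * (g * w' * g⁻¹) ∈ π.ker := by
    rw [MonoidHom.mem_ker, map_mul, map_mul, map_mul, map_inv, map_inv, hg, inv_mul_cancel]
  have h2 : (w * (w⁻¹ * (g * w' * g⁻¹))) ^ orderOf w = 1 := by
    rw [mul_inv_cancel_left, conj_pow, hw', mul_one, mul_inv_cancel]
  have hc : Commute w (w⁻¹ * (g * w' * g⁻¹)) := mem_center_iff.1 (hker h1) w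
  rw [hc.mul_pow, pow_orderOf_eq_one, one_mul] at h2
  have h3 : orderOf (⟨_, h1⟩ : π.ker) ∣ orderOf w := orderOf_dvd_of_pow_eq_one (Subtype.ext h2)
  have h4 := orderOf_eq_one_iff.1 (Nat.eq_one_of_dvd_coprimes hw h3 (_root_.orderOf_dvd_natCard _))
  have h5 : w⁻¹ * (g * w' * g⁻¹) = 1 := congrArg Subtype.val h4
  rw [inv_mul_eq_one] at h5
  exact isConj_iff.2 ⟨g, h5.symm⟩

/-- A lift of order `p`. -/
theorem exists_lift {S : Type*} [Group S] {π : G →* S} (hπ : Function.Surjective π) {p : ℕ} (hp : p.Prime)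
    (hpm : ¬ p ∣ Nat.card π.ker) {x : S} (hx : x ^ p = 1) : ∃ w : G, π w = x ∧ w ^ p = 1 := by
  obtain ⟨x0, hx0⟩ := hπ x
  have hco : p.Coprime (Nat.card π.ker) := (hp.coprime_iff_not_dvd).2 hpm
  obtain ⟨a, ha1, ha2⟩ := Nat.chineseRemainder hco 1 0
  obtain ⟨b, hb⟩ := (Nat.modEq_zero_iff_dvd).1 ha2
  refine ⟨x0 ^ a, ?_, ?_⟩
  · rw [map_pow, hx0]
    have h1 : x ^ a = x ^ 1 := pow_eq_pow_iff_modEq.2 (ha1.of_dvd (orderOf_dvd_of_pow_eq_one hx))
    rw [h1, pow_one]
  · have h1 : x0 ^ p ∈ π.ker := by rw [MonoidHom.mem_ker, map_pow, hx0, hx]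
    have h2 : (x0 ^ p) ^ Nat.card π.ker = 1 := congrArg Subtype.val (pow_card_eq_one' (G := π.ker) (x := ⟨x0 ^ p, h1⟩))
    calc (x0 ^ a) ^ p = ((x0 ^ p) ^ Nat.card π.ker) ^ b := by rw [hb, ← pow_mul, ← pow_mul, ← pow_mul]; ring_nf
      _ = 1 := by rw [h2, one_pow]

end gen

/-- Elements of order `p` do not commute up to elements of order prime to `p`. -/
theorem comm_of_pow {G : Type*} [Group G] {N : Subgroup G} (hN : N ≤ center G) {p : ℕ} (hp : p.Prime)
    (hpm : ¬ p ∣ Nat.card N) {g : G} (hg : g ^ p = 1) {y : G} (hy : ⁅g, y⁆ ∈ N) : ⁅g, y⁆ = 1 := by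
  have hc : ∀ t, t * ⁅g, y⁆ = ⁅g, y⁆ * t := fun t => mem_center_iff.1 (hN hy) t
  have h5 : ⁅g, y⁆ ^ p = 1 := by
    have h6 : y * g * y⁻¹ = ⁅g, y⁆⁻¹ * g := by rw [commutatorElement_def]; group
    have h7 : (y * g * y⁻¹) ^ p = 1 := by rw [conj_pow, hg, mul_one, mul_inv_cancel]
    have h8 : Commute ⁅g, y⁆⁻¹ g := Commute.inv_left (show Commute ⁅g, y⁆ g from (hc g).symm)
    rw [h6, h8.mul_pow, hg, mul_one, inv_pow, inv_eq_one] at h7
    exact h7
  have h6 : orderOf (⟨_, hy⟩ : N) ∣ p := orderOf_dvd_of_pow_eq_one (Subtype.ext h5)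
  have h7 : orderOf (⟨_, hy⟩ : N) ∣ Nat.card N := _root_.orderOf_dvd_natCard _
  rcases (Nat.dvd_prime hp).1 h6 with h8 | h8
  · exact congrArg Subtype.val (orderOf_eq_one_iff.1 h8)
  · exact absurd (h8 ▸ h7) hpm

section main

variable {S : Type u} [Group S] [Finite S] {x : S} {V : Subgroup S} {d : S}

theorem grp_le_cent (h : FourD V d) (hVx : ∀ v ∈ V, v * x = x * v) (hdx : d * x = x * d) :
    h.grp ≤ centralizer ({x} : Set S) := by
  rintro _ ⟨v, hv, i, rfl⟩
  rw [mem_centralizer_singleton_iff]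
  have h1 : Commute d x := hdx
  rw [mul_assoc, (h1.pow_left i).eq, ← mul_assoc, hVx v hv, mul_assoc]

theorem zpowers_inf_grp (h : FourD V d) (hVx : ∀ v ∈ V, v * x = x * v) (hdx : d * x = x * d) :
    zpowers x ⊓ h.grp = ⊥ := by
  rw [eq_bot_iff]
  intro g hg
  obtain ⟨hg1, v, hv, i, rfl⟩ := mem_inf.1 hg
  -- central in `L`: commutes with `V`
  obtain ⟨a, ha, hda⟩ := h.ne
  obtain ⟨j, hj⟩ := mem_zpowers_iff.1 hg1
  have hxa : Commute x a := (hVx a ha).symm
  have hca : Commute (v * d ^ i) a := by rw [← hj]; exact hxa.zpow_left j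
  have hxd : Commute x d := hdx.symm
  have hcd : Commute (v * d ^ i) d := by rw [← hj]; exact hxd.zpow_left j
  have ha1 : a ≠ 1 := by rintro rfl; exact hda (by simp)
  have h1 : Commute (d ^ i) a := by
    have h2 : Commute v a := h.comm v hv a ha
    have h3 : d ^ i = v⁻¹ * (v * d ^ i) := by group
    rw [h3]
    exact h2.inv_left.mul_left hca
  have h2 := h.pow_eq_one ha ha1 h1.eq
  rw [h2, mul_one] at hcd ⊢
  rw [h.eq_one hv hcd.eq.symm]
  exact Subgroup.one_mem _

theorem cent_eq_sup (hx : orderOf x = 3) (hcard : Nat.card (centralizer ({x} : Set S)) = 36) (h : FourD V d)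
    (hVx : ∀ v ∈ V, v * x = x * v) (hdx : d * x = x * d) : centralizer ({x} : Set S) = zpowers x ⊔ h.grp := by
  symm
  refine eq_of_le_of_card_ge (sup_le ?_ (grp_le_cent h hVx hdx)) ?_
  · rw [zpowers_le, mem_centralizer_singleton_iff]
  · rw [hcard]
    let f : zpowers x × h.grp → (zpowers x ⊔ h.grp : Subgroup S) := fun y =>
      ⟨y.1 * y.2, mul_mem (mem_sup_left y.1.2) (mem_sup_right y.2.2)⟩
    have hf : Function.Injective f := by
      rintro ⟨a, b⟩ ⟨a', b'⟩ hab
      have h4 : (a : S) * b = a' * b' := congrArg Subtype.val hab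
      have h5 : ((a' : S)⁻¹ * a) = b' * (b : S)⁻¹ := by
        rw [eq_mul_inv_iff_mul_eq, mul_assoc, h4, inv_mul_cancel_left]
      have h6 : ((a' : S)⁻¹ * a) ∈ zpowers x ⊓ h.grp :=
        mem_inf.2 ⟨mul_mem (inv_mem a'.2) a.2, by rw [h5]; exact mul_mem b'.2 (inv_mem b.2)⟩
      rw [zpowers_inf_grp h hVx hdx, mem_bot] at h6
      have h7 : a' = a := Subtype.ext (inv_mul_eq_one.1 h6)
      rw [h6, eq_comm, mul_inv_eq_one] at h5
      exact Prod.ext h7.symm (Subtype.ext h5.symm)
    have h4 := Nat.card_le_card_of_injective f hf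
    rw [Nat.card_prod, Nat.card_zpowers, hx, h.card_grp] at h4
    omega

variable {E : Type u} [Group E] [Finite E] {π : E →* S}

/-- **The preimage of `V` is abelian**: a character of degree divisible by 3 over `l`. -/
theorem exists_of_abelian (hπ : Function.Surjective π) (hker : π.ker ≤ center E) (hpm : ¬ 3 ∣ Nat.card π.ker)
    (l : π.ker →* ℂˣ) (hx : orderOf x = 3)
    (hcard : Nat.card (centralizer ({x} : Set S)) = 36) (h : FourD V d)
    (hVx : ∀ v ∈ V, v * x = x * v) (hdx : d * x = x * d)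
    (hcase : ∀ a ∈ V.comap π, ∀ b ∈ V.comap π, ⁅a, b⁆ = 1) :
    ∃ χ : E → ℂ, IsIrrCharacter E χ ∧ (∀ z : π.ker, χ z = χ 1 * l z) ∧ 3 ∣ charDegree χ := by
  have h3 : Fact (Nat.Prime 3) := ⟨Nat.prime_three⟩
  -- the elements
  obtain ⟨v, hv, hdv⟩ := h.ne
  have hv1 : v ≠ 1 := by rintro rfl; exact hdv (by simp)
  obtain ⟨v', hv'⟩ := hπ v
  obtain ⟨d', hd', hd3⟩ := exists_lift hπ Nat.prime_three hpm h.cube
  have hvm : v' ∈ h.grp.comap π := by rw [mem_comap, hv']; exact h.le_grp hv
  have hdm : d' ∈ h.grp.comap π := by rw [mem_comap, hd']; exact h.d_mem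
  set D : ↥(h.grp.comap π) := ⟨d', hdm⟩ with hD
  have hπD : res π h.grp D = ⟨d, h.d_mem⟩ := Subtype.ext hd'
  have hkc : Nat.card (res π h.grp).ker = Nat.card π.ker := Nat.card_congr (Equiv.ofBijective _ (kerHom_bij π h.grp))
  -- elements of order 3 are good
  have good3 : ∀ g : ↥(h.grp.comap π), g ^ 3 = 1 → ∀ y, ⁅g, y⁆ ∈ (res π h.grp).ker → ⁅g, y⁆ = 1 :=
    fun g hg y hy => comm_of_pow (res_ker_le hker h.grp) Nat.prime_three (by rwa [hkc]) hg hy
  have hgl : H916.RIM.GoodList (res π h.grp) 4 := by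
    refine ⟨![1, ⟨v', hvm⟩, D, D ^ 2], ?_, ?_⟩
    · intro i y hy
      fin_cases i
      · exact commutatorElement_one_left y
      · -- `y` lies in the preimage of `V`
        show ⁅(⟨v', hvm⟩ : ↥(h.grp.comap π)), y⁆ = 1
        have hy' : π ⁅v', (y : E)⁆ = 1 := mem_res_ker.1 hy
        rw [map_commutatorElement, commutatorElement_eq_one_iff_mul_comm, hv'] at hy'
        obtain ⟨u, hu, i, hui⟩ := y.2
        rw [hui] at hy'
        have h1 : Commute (d ^ i) v := by
          have h2 : Commute u v := h.comm u hu v hv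
          have h3 : d ^ i = u⁻¹ * (u * d ^ i) := by group
          rw [h3]
          exact h2.inv_left.mul_left (show Commute (u * d ^ i) v from hy'.symm)
        have h2 := h.pow_eq_one hv hv1 h1.eq
        rw [h2, mul_one] at hui
        exact Subtype.ext (hcase v' (by rw [mem_comap, hv']; exact hv) y (by rw [mem_comap, hui]; exact hu))
      · exact good3 D (Subtype.ext hd3) y hy
      · refine good3 (D ^ 2) ?_ y hy
        rw [← pow_mul, mul_comm, pow_mul, show D ^ 3 = 1 from Subtype.ext hd3, one_pow]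
    · -- pairwise not conjugate
      have hπv : res π h.grp ⟨v', hvm⟩ = ⟨v, h.le_grp hv⟩ := Subtype.ext hv'
      have hVo : v ^ 4 = 1 := by
        have := pow_card_eq_one' (G := V) (x := ⟨v, hv⟩)
        rw [h.card] at this
        exact congrArg Subtype.val this
      have key : ∀ a b : h.grp, IsConj a b → ∀ n : ℕ, (a : S) ^ n = 1 → (b : S) ^ n = 1 := by
        intro a b hab n ha
        obtain ⟨c, hc⟩ := isConj_iff.1 hab
        rw [← hc]
        have h1 : ((c * a * c⁻¹ : h.grp) : S) = c * a * (c : S)⁻¹ := rfl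
        rw [h1, conj_pow, ha, mul_one, mul_inv_cancel]
      have hd1 := h.d_ne
      have hd21 : d ^ 2 ≠ 1 := by
        intro h1
        have h2 := orderOf_dvd_of_pow_eq_one h1
        rw [h.orderOf_d] at h2
        revert h2; norm_num
      have hπD2 : res π h.grp (D ^ 2) = ⟨d ^ 2, h.grp.pow_mem h.d_mem 2⟩ := by
        rw [map_pow, hπD]; rfl
      have hv3 : v ^ 3 ≠ 1 := by
        intro h1
        rw [pow_succ, h1, one_mul] at hVo
        exact hv1 hVo
      intro i j hij
      fin_cases i <;> fin_cases j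
      · rfl
      · exfalso
        change IsConj (res π h.grp 1) (res π h.grp ⟨v', hvm⟩) at hij
        rw [hπv, map_one] at hij
        have := key _ _ hij 1 (by simp)
        exact hv1 (by simpa using this)
      · exfalso
        change IsConj (res π h.grp 1) (res π h.grp D) at hij
        rw [hπD, map_one] at hij
        have := key _ _ hij 1 (by simp)
        exact hd1 (by simpa using this)
      · exfalso
        change IsConj (res π h.grp 1) (res π h.grp (D ^ 2)) at hij
        rw [hπD2, map_one] at hij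
        have := key _ _ hij 1 (by simp)
        exact hd21 (by simpa using this)
      · exfalso
        change IsConj (res π h.grp ⟨v', hvm⟩) (res π h.grp 1) at hij
        rw [hπv, map_one] at hij
        have := key _ _ hij.symm 1 (by simp)
        exact hv1 (by simpa using this)
      · rfl
      · exfalso
        change IsConj (res π h.grp ⟨v', hvm⟩) (res π h.grp D) at hij
        rw [hπv, hπD] at hij
        exact hv3 (key _ _ hij.symm 3 h.cube)
      · exfalso
        change IsConj (res π h.grp ⟨v', hvm⟩) (res π h.grp (D ^ 2)) at hij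
        rw [hπv, hπD2] at hij
        refine hv3 (key _ _ hij.symm 3 ?_)
        show (d ^ 2) ^ 3 = 1
        rw [← pow_mul, mul_comm, pow_mul, h.cube, one_pow]
      · exfalso
        change IsConj (res π h.grp D) (res π h.grp 1) at hij
        rw [hπD, map_one] at hij
        have := key _ _ hij.symm 1 (by simp)
        exact hd1 (by simpa using this)
      · exfalso
        change IsConj (res π h.grp D) (res π h.grp ⟨v', hvm⟩) at hij
        rw [hπv, hπD] at hij
        exact hv3 (key _ _ hij 3 h.cube)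
      · rfl
      · exfalso
        change IsConj (res π h.grp D) (res π h.grp (D ^ 2)) at hij
        rw [hπD, hπD2] at hij
        obtain ⟨c, hc⟩ := isConj_iff.1 hij
        have h1 : (c : S) * d ^ 1 * (c : S)⁻¹ = d ^ 2 := by rw [pow_one]; exact congrArg Subtype.val hc
        have h2 := h.not_conj c.2 h1
        rw [pow_one, pow_two, eq_comm, mul_eq_left] at h2
        exact hd1 h2
      · exfalso
        change IsConj (res π h.grp (D ^ 2)) (res π h.grp 1) at hij
        rw [hπD2, map_one] at hij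
        have := key _ _ hij.symm 1 (by simp)
        exact hd21 (by simpa using this)
      · exfalso
        change IsConj (res π h.grp (D ^ 2)) (res π h.grp ⟨v', hvm⟩) at hij
        rw [hπv, hπD2] at hij
        refine hv3 (key _ _ hij 3 ?_)
        show (d ^ 2) ^ 3 = 1
        rw [← pow_mul, mul_comm, pow_mul, h.cube, one_pow]
      · exfalso
        change IsConj (res π h.grp (D ^ 2)) (res π h.grp D) at hij
        rw [hπD, hπD2] at hij
        obtain ⟨c, hc⟩ := isConj_iff.1 hij
        have h1 : (c : S) * d ^ 2 * (c : S)⁻¹ = d ^ 1 := by rw [pow_one]; exact congrArg Subtype.val hc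
        have h2 := h.not_conj c.2 h1
        rw [pow_one, pow_two, mul_eq_left] at h2
        exact hd1 h2
      · rfl
  obtain ⟨θ, hθ, hθl, hθd⟩ := exists_theta Nat.prime_three hπ hker hpm l (L := h.grp) (w := D) (k := 1) (n := 4)
    (by rw [pow_one]; exact Subtype.ext hd3) hgl (by rw [hπD]; exact h.card_cent_d)
  -- the degree
  have hd0 : charDegree θ ≠ 0 := by
    intro h0
    obtain ⟨n, hn, hn'⟩ := Cfsg.Agent.Characters.Core.isIrr_apply_one hθ
    unfold charDegree at h0
    rw [hn'] at h0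
    simp at h0
    omega
  have hGc : Nat.card ↥(h.grp.comap π) = 12 * Nat.card π.ker := by rw [card_comap_surj π hπ, h.card_grp]
  have hfac : (charDegree θ).factorization 3 = (Nat.card h.grp).factorization 3 := by
    have hb : (Nat.card h.grp).factorization 3 = 1 := by
      rw [h.card_grp, show 12 = 2 ^ 2 * 3 by norm_num, Nat.factorization_mul (by norm_num) (by norm_num),
        Nat.factorization_pow]
      simp [Nat.Prime.factorization Nat.prime_two, Nat.Prime.factorization Nat.prime_three]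
    rw [hb]
    refine le_antisymm ?_ ((Nat.prime_three.dvd_iff_one_le_factorization hd0).1 hθd)
    have h1 : charDegree θ ∣ 12 * Nat.card π.ker := by rw [← hGc]; exact deg_dvd hθ
    have hk0 : Nat.card π.ker ≠ 0 := Nat.card_pos.ne'
    have h3 := (Nat.factorization_le_iff_dvd hd0 (mul_ne_zero (by norm_num) hk0)).2 h1 3
    refine h3.trans ?_
    rw [Nat.factorization_mul (by norm_num) hk0, Finsupp.add_apply, Nat.factorization_eq_zero_of_not_dvd hpm, add_zero,
      ← hb, h.card_grp]
  have hQ : Nat.card (zpowers x) = 3 := by rw [Nat.card_zpowers, hx]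
  have hH : centralizer ({x} : Set S) = centralizer ((zpowers x : Subgroup S) : Set S) := by
    rw [zpowers_eq_closure, centralizer_closure]
  refine H35.RIM.exists_dvd_ext hπ hker hpm l (IsPGroup.of_card (n := 1) (by rw [pow_one, hQ])) ?_
    (hH ▸ cent_eq_sup hx hcard h hVx hdx) (zpowers_inf_grp h hVx hdx)
    (H35.RIM.not_dvd_of_card hQ) ?_ θ hθ hθl hfac
  · rw [← hH, zpowers_le, mem_centralizer_singleton_iff]
  · rw [hQ]
    have h1 : 36 ∣ Nat.card S := by rw [← hcard]; exact card_subgroup_dvd_card _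
    exact Dvd.dvd.trans (by norm_num) h1

end main

/-- **`p = 3`, `C_S(x) = 3 × A₄`, seven good classes, kernels of order prime to 3.** -/
theorem nb_three_of_par {S : Type u} [Group S] [Finite S] {m : ℕ} (hm3 : ¬ 3 ∣ m) {x : S} (hx : orderOf x = 3)
    (hcard : Nat.card (centralizer ({x} : Set S)) = 36) {V : Subgroup S} {d : S} (h : FourD V d)
    (hVx : ∀ v ∈ V, v * x = x * v) (hdx : d * x = x * d) (hxr : ∀ k : ℕ, k.Coprime 3 → IsConj (x ^ k) x)
    {q : ℕ} (hq : q.Prime) (hq3 : q ≠ 3) (hqm : ¬ q ∣ m) {y : S} (hy : orderOf y = q)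
    (hyc : Odd (Nat.card (centralizer ({y} : Set S)))) (hyr : ∀ k : ℕ, k.Coprime q → IsConj (y ^ k) y)
    (F : Finset (ConjClasses S)) (hF : ∀ C ∈ F, ∃ g : S, ConjClasses.mk g = C ∧ MGood m g) (hlt : 7 ≤ F.card) :
    NB 3 m S := by
  intro E _ _ π hπ hker hperf hm l hl
  have h3 : Fact (Nat.Prime 3) := ⟨Nat.prime_three⟩
  have hpm : ¬ 3 ∣ Nat.card π.ker := by rwa [hm]
  have hqm' : ¬ q ∣ Nat.card π.ker := by rwa [hm]
  by_cases hcase : ∃ a ∈ V.comap π, ∃ b ∈ V.comap π, ⁅a, b⁆ ≠ 1
  · obtain ⟨a, ha, b, hb, hab⟩ := hcase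
    by_contra hcon
    push Not at hcon
    have hz : ⁅a, b⁆ ∈ π.ker := by
      rw [MonoidHom.mem_ker, map_commutatorElement, commutatorElement_eq_one_iff_mul_comm]
      exact h.comm _ ha _ hb
    -- the order of the commutator
    have ho : 2 ∣ orderOf (l ⟨_, hz⟩) := by
      have h1 : ⁅a, b⁆ ^ 4 = 1 := by
        have ha4 : a ^ 4 ∈ π.ker := by
          rw [MonoidHom.mem_ker, map_pow]
          have := pow_card_eq_one' (G := V) (x := ⟨π a, ha⟩)
          rw [h.card] at this
          exact congrArg Subtype.val this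
        have hc : Commute ⁅a, b⁆ a := (mem_center_iff.1 (hker hz) a).symm
        have h6 : b * a * b⁻¹ = ⁅a, b⁆⁻¹ * a := by rw [commutatorElement_def]; group
        have h7 : (b * a * b⁻¹) ^ 4 = a ^ 4 := by
          rw [conj_pow, mem_center_iff.1 (hker ha4) b, mul_inv_cancel_right]
        rw [h6, hc.inv_left.mul_pow, inv_pow] at h7
        exact inv_eq_one.1 (mul_eq_right.1 h7)
      have h2 : orderOf (l ⟨_, hz⟩) ∣ 2 ^ 2 := by
        refine orderOf_dvd_of_pow_eq_one ?_
        rw [← map_pow, ← map_one l]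
        exact congrArg l (Subtype.ext h1)
      obtain ⟨j, -, hj⟩ := (Nat.dvd_prime_pow Nat.prime_two).1 h2
      rcases Nat.eq_zero_or_pos j with rfl | hj0
      · exfalso
        rw [pow_zero, orderOf_eq_one_iff, ← map_one l] at hj
        exact hab (congrArg Subtype.val (hl hj))
      · rw [hj]
        exact dvd_pow_self 2 hj0.ne'
    -- lifts
    obtain ⟨w, hw, hw3⟩ := exists_lift hπ Nat.prime_three hpm (x := x) (by rw [← hx]; exact pow_orderOf_eq_one x)
    obtain ⟨y', hy', hyq⟩ := exists_lift hπ hq hqm' (x := y) (by rw [← hy]; exact pow_orderOf_eq_one y)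
    have hx1 : x ≠ 1 := by rintro rfl; rw [orderOf_one] at hx; norm_num at hx
    have hy1 : y ≠ 1 := by rintro rfl; rw [orderOf_one] at hy; exact hq.one_lt.ne hy
    have how : orderOf w = 3 := orderOf_eq_prime hw3 (by rintro rfl; exact hx1 (by rw [← hw, map_one]))
    have : Fact q.Prime := ⟨hq⟩
    have hoy : orderOf y' = q := orderOf_eq_prime hyq (by rintro rfl; exact hy1 (by rw [← hy', map_one]))
    have hcw : (orderOf w).Coprime (Nat.card π.ker) := by
      rw [how]; exact (Nat.prime_three.coprime_iff_not_dvd).2 hpm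
    have hcy : (orderOf y').Coprime (Nat.card π.ker) := by
      rw [hoy]; exact (hq.coprime_iff_not_dvd).2 hqm'
    have hcen : ∀ g ∈ V.comap π, Commute w g := by
      intro g hg
      have h1 : g ∈ centralizer ({w} : Set E) := by
        rw [centralizer_lift π hπ hker hcw, mem_comap, mem_centralizer_singleton_iff, hw]
        exact hVx _ hg
      exact (mem_centralizer_singleton_iff.1 h1).symm
    let e : (E ⧸ π.ker) ≃* S := QuotientGroup.quotientKerEquivOfSurjective π hπ
    obtain ⟨F', hF'c, hF'⟩ := exists_transport e F hF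
    have h7 := card_mGood_ge hker l F' (hm ▸ hF')
    refine false_of_par hker l hcw hcy ?_ ?_ hyc (by rw [card_centralizer_lift π hπ hker hcy, hy']) ?_ ?_ ?_ ?_
      (hlt.trans (hF'c ▸ h7))
    · intro z hcj
      have h1 : IsConj x y := by
        have h2 : IsConj (π (w * z)) (π y') := MonoidHom.map_isConj π hcj
        rwa [map_mul, hw, hy', MonoidHom.mem_ker.1 z.2, mul_one] at h2
      obtain ⟨g, hg⟩ := isConj_iff.1 h1
      have h2 : orderOf (g * x * g⁻¹) = orderOf x :=
        orderOf_injective (MulAut.conj g).toMonoidHom (MulAut.conj g).injective x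
      rw [hg, hy, hx] at h2
      exact hq3 h2
    · rw [card_centralizer_lift π hπ hker hcw, hw, hcard]
    · intro k hk
      refine isConj_lift hπ hker hcw ?_ ?_
      · rw [how, ← pow_mul, mul_comm, pow_mul, hw3, one_pow]
      · rw [map_pow, hw]
        refine hxr k (hk.coprime_dvd_right ?_)
        rw [← how]
        exact _root_.orderOf_dvd_natCard w
    · intro k hk
      refine isConj_lift hπ hker hcy ?_ ?_
      · rw [hoy, ← pow_mul, mul_comm, pow_mul, hyq, one_pow]
      · rw [map_pow, hy']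
        refine hyr k (hk.coprime_dvd_right ?_)
        rw [← hoy]
        exact _root_.orderOf_dvd_natCard y'
    · intro χ hχ
      obtain ⟨α, hα, h8⟩ := exists_integral hker χ.2 hχ (hcen a ha) (hcen b hb) (z := ⟨_, hz⟩) rfl
      obtain ⟨t, ht⟩ := ho
      refine ⟨t * α, ?_, ?_⟩
      · have h1 : IsIntegral ℤ (t : ℂ) := by
          have := isIntegral_algebraMap (R := ℤ) (A := ℂ) (x := (t : ℤ))
          simpa using this
        exact h1.mul hα
      · rw [h8, ht]
        push_cast
        ring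
    · intro χ hχ h0
      refine hcon χ χ.2 (fun z => ?_) (dvd_of_zero (n := 1) (by rwa [pow_one]) χ h0)
      have h2 := hχ 1 z
      rwa [one_mul] at h2
  · push Not at hcase
    exact exists_of_abelian hπ hker hpm l hx hcard h hVx hdx hcase

end Cfsg.Agent.H483.RIM
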